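import Cfsg.Agent.Lib.ClassicalForms.Exceptional.Common
import Cfsg.Agent.Lib.ClassicalForms.Exceptional.Alt4
import Cfsg.Agent.Lib.ClassicalForms.Ortho.POmegaCard
import Cfsg.Agent.Lib.ClassicalLinear.Card
import Cfsg.Agent.Lib.ClassicalLinear.Generation

/-!
`PΩ⁺₆(q) ≅ PSL₄(q)`.
-/

set_option autoImplicit false

namespace CfsgLib.ClassicalForms

open scoped MatrixGroups commutatorElement
open Matrix

variable {F : Type*} [Field F]

lemma neg_one_ne_one_sl {ι : Type*} [Fintype ι] [DecidableEq ι] [Nonempty ι]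
    [Fact (Even (Fintype.card ι))] (h2 : (2 : F) ≠ 0) : (-1 : SpecialLinearGroup ι F) ≠ 1 := by
  intro h
  obtain ⟨i⟩ := ‹Nonempty ι›
  have e := congrArg (fun g : SpecialLinearGroup ι F => (g : Matrix ι ι F) i i) h
  simp at e
  exact h2 (by linear_combination -e)

lemma card_sl_four [Finite F] : (Nat.card SL(4, F) : ℤ) = (Nat.card F : ℤ) ^ 6
    * ((Nat.card F : ℤ) ^ 2 - 1) * ((Nat.card F : ℤ) ^ 3 - 1) * ((Nat.card F : ℤ) ^ 4 - 1) := by
  have := Fintype.ofFinite F
  have h := CfsgLib.ClassicalLinear.card_SL (ι := Fin 4) (F := F)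
  have h1 : 1 < Nat.card F := Finite.one_lt_card
  rw [Fintype.card_fin] at h
  simp [Fin.prod_univ_succ] at h
  rw [show Fintype.card F = Nat.card F from Nat.card_eq_fintype_card.symm] at h
  have hle : ∀ k, k < 4 → Nat.card F ^ k ≤ Nat.card F ^ 4 := fun k hk =>
    Nat.pow_le_pow_right (by omega) hk.le
  have h0 : 1 ≤ Nat.card F ^ 4 := Nat.one_le_pow _ _ (by omega)
  have hq1 : 1 ≤ Nat.card F := h1.le
  have hle1 : Nat.card F ≤ Nat.card F ^ 4 := Nat.le_self_pow (by norm_num) _
  zify [hle1, hle 2 (by norm_num), hle 3 (by norm_num), h0, hq1] at h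
  apply mul_left_cancel₀ (show ((Nat.card F : ℤ) - 1) ≠ 0 by
    have : (1 : ℤ) < Nat.card F := by exact_mod_cast h1
    omega)
  rw [h]
  ring

/-- The coordinates `(x, y)` as a sextuple. -/
def sixVec (v : Fin 3 ⊕ Fin 3 → F) : Fin 6 → F :=
  ![v (.inl 0), v (.inl 1), v (.inl 2), v (.inr 2), -v (.inr 1), v (.inr 0)]

theorem nonempty_pOmega_six_plus [Finite F] :
    Nonempty (Cfsg.POmega F (Cfsg.quadFormPlus 3 F)
      ≃* Matrix.ProjectiveSpecialLinearGroup (Fin 4) F) := by
  classical
  have : Fact (Even (Fintype.card (Fin 4))) := ⟨by decide⟩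
  obtain ⟨φ, hφ⟩ := exists_orthHom (R := qPlus 3 F) (RingHom.id F) sixVec
    (fun u v h => by
      funext i
      have e := fun r => congrFun h r
      rcases i with i | i <;> fin_cases i
      · simpa [sixVec] using e 0
      · simpa [sixVec] using e 1
      · simpa [sixVec] using e 2
      · simpa [sixVec] using e 5
      · simpa [sixVec] using e 4
      · simpa [sixVec] using e 3)
    (fun u v => by funext r; fin_cases r <;> simp [sixVec]; ring)
    (fun t v => by funext r; fin_cases r <;> simp [sixVec])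
    (fun g : SL(4, F) => Alt4.act (g : Matrix (Fin 4) (Fin 4) F))
    (fun v => Alt4.act_one _)
    (fun g g' v => Alt4.act_mul _ _ _)
    (fun g v => by
      refine ⟨Sum.elim ![Alt4.act g.1 (sixVec v) 0, Alt4.act g.1 (sixVec v) 1,
        Alt4.act g.1 (sixVec v) 2] ![Alt4.act g.1 (sixVec v) 5, -Alt4.act g.1 (sixVec v) 4,
        Alt4.act g.1 (sixVec v) 3], ?_⟩
      funext r; fin_cases r <;> simp [sixVec])
    Alt4.pf
    (fun v => by
      rw [qPlus_apply]
      simp [Cfsg.quadFormPlus, sixVec, Alt4.pf, Fin.sum_univ_succ]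
      ring)
    (fun g v => by rw [Alt4.pf_act, g.2, one_mul])
  have hsurj : Function.Surjective (sixVec (F := F)) := fun a =>
    ⟨Sum.elim ![a 0, a 1, a 2] ![a 5, -a 4, a 3], by
      funext r; fin_cases r <;> simp [sixVec]⟩
  have hinj : Function.Injective (sixVec (F := F)) :=
    (hsurj.bijective_of_nat_card_le (by simp [Nat.card_fun])).1
  have hker : ∀ g, g ∈ φ.ker ↔ g = 1 ∨ g = -1 := by
    intro g
    rw [MonoidHom.mem_ker]
    constructor
    · intro hg
      obtain ⟨d, hd, hgd⟩ := Alt4.exists_scalar_of_act_eq (g := (g : Matrix (Fin 4) (Fin 4) F))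
        fun a => by
          obtain ⟨v, rfl⟩ := hsurj a
          rw [← hφ, hg, orth_one_apply]
      rcases mul_self_eq_one_iff.1 hd with rfl | rfl
      · exact Or.inl (Subtype.ext (by simpa using hgd))
      · exact Or.inr (Subtype.ext (by simpa using hgd))
    · rintro (rfl | rfl)
      · exact map_one φ
      · refine orth_ext fun v => hinj ?_
        rw [hφ, orth_one_apply, Matrix.SpecialLinearGroup.coe_neg,
          Matrix.SpecialLinearGroup.coe_one, Alt4.act_neg_one]
  have hkc : φ.ker ≤ Subgroup.center SL(4, F) := fun g hg => by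
    rcases (hker g).1 hg with rfl | rfl
    · exact one_mem _
    · exact Subgroup.mem_center_iff.2 fun x => by rw [mul_neg, neg_mul, one_mul, mul_one]
  have hperf := CfsgLib.ClassicalLinear.commutator_sl_eq_top (ι := Fin 4) (F := F)
    (Or.inl (by simp))
  have hQ := nondeg_qPlus (F := F) 3
  have := finite_orth (qPlus 3 F)
  have hrange := range_le_commutator_of_perfect φ hperf
  have hO := card_orth_qPlus (F := F) 3 (by norm_num)
  simp [Finset.prod_range_succ] at hO
  refine nonempty_pOmega_equiv (qPlus_apply 3) φ (QuotientGroup.mk' _)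
    (QuotientGroup.mk'_surjective _) (QuotientGroup.ker_mk' _) hkc
    (fun g hg => mem_center_of_forall_commutator_mem hperf fun x => hkc (hg x)) hrange ?_
  by_cases h2 : (2 : F) = 0
  · have hbot : φ.ker = ⊥ := φ.ker.eq_bot_iff_forall.2 fun g hg => by
      rcases (hker g).1 hg with rfl | rfl
      · rfl
      · refine Subtype.ext ?_
        ext i j
        have : (-1 : F) = 1 := by linear_combination -h2
        simp [Matrix.SpecialLinearGroup.coe_neg, Matrix.one_apply, apply_ite, this]
    have hc : Nat.card (orth (qPlus 3 F)) * Nat.card φ.ker = Nat.card SL(4, F) * 2 := by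
      rw [hbot, Subgroup.card_bot, mul_one]
      zify
      rw [hO, card_sl_four]; ring
    rw [index_commutator_eq_two φ hrange hc, hc]
  · have hcard : Nat.card φ.ker = 2 := by
      rw [← SetLike.coe_sort_coe,
        show (φ.ker : Set SL(4, F)) = {1, -1} from Set.ext fun g => by simp [hker g],
        Nat.card_coe_set_eq, Set.ncard_pair]
      exact (neg_one_ne_one_sl h2).symm
    rw [index_commutator_orth_odd h2 (by simp) hQ, hcard]
    zify
    rw [hO, card_sl_four]; ring

end CfsgLib.ClassicalForms
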